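import Mathlib

/-!
# S5745, `²E₆(2)` and `Fi22`, G-side: the structure of `C_G(r)` (helper622)

`QSide r Q` : `r` an involution of `G`, `Q = O_2(C_G(r))` of type `2^{1+20}`.
* `QSide.conj` : conjugation;
* `QSide.inf`, `QSide.sup`, `QSide.fixed'` : a subgroup `C ≤ C_G(r)` of order `2 |U₆(2)|` whose proper normal
  subgroups are contained in `{1, r}` meets `Q` in `{1, r}`, covers `C_G(r)/Q` and has no fixed points on `Q/⟨r⟩`;
* `QSide.lift` : elements of order `p ≠ 2` of `C_G(r)` fixing `u` modulo `⟨r⟩` can be replaced by elements of `C`.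
-/

set_option autoImplicit false
set_option linter.unusedSectionVars false

namespace Cfsg.Agent.H622.Fi

open Subgroup

open scoped Pointwise

/-- the structure of `C_G(r)` -/
structure QSide {G : Type*} [Group G] (r : G) (Q : Subgroup G) : Prop where
  sq : r * r = 1
  ne : r ≠ 1
  rQ : r ∈ Q
  Qr : ∀ x ∈ Q, x * r = r * x
  norm : ∀ y, y * r = r * y → ∀ x ∈ Q, y * x * y⁻¹ ∈ Q
  two : IsPGroup 2 Q
  comm : ∀ x ∈ Q, ∀ y ∈ Q, x * y = y * x ∨ x * y = y * x * r
  fixed : ∀ x ∈ Q, (∀ y, y * r = r * y → y * x * y⁻¹ = x ∨ y * x * y⁻¹ = x * r) → x = 1 ∨ x = r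
  card : Nat.card (centralizer ({r} : Set G)) = Nat.card Q * 9196830720
  partner : ∀ x ∈ Q, x ≠ 1 → x ≠ r → ∃ w ∈ Q, x * w * x⁻¹ * w⁻¹ = r

variable {G : Type*} [Group G] {r : G} {Q : Subgroup G}

/-- **Conjugation.** -/
theorem QSide.conj (h : QSide r Q) (g : G) :
    QSide (g * r * g⁻¹) (Q.map (MulAut.conj g).toMonoidHom) := by
  have hm : ∀ x : G, x ∈ Q.map (MulAut.conj g).toMonoidHom ↔ g⁻¹ * x * g ∈ Q := by
    intro x
    constructor
    · rintro ⟨y, hy, rfl⟩
      have e : g⁻¹ * (MulAut.conj g).toMonoidHom y * g = y := by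
        show g⁻¹ * (g * y * g⁻¹) * g = y
        group
      rwa [e]
    · intro hx
      exact ⟨_, hx, by show g * (g⁻¹ * x * g) * g⁻¹ = x; group⟩
  have cj : ∀ {a b : G}, g⁻¹ * a * g = g⁻¹ * b * g → a = b := fun {a b} e => by
    have := congrArg (fun t => g * t * g⁻¹) e
    simpa [mul_assoc] using this
  have hy : ∀ y : G, y * (g * r * g⁻¹) = g * r * g⁻¹ * y → g⁻¹ * y * g * r = r * (g⁻¹ * y * g) := by
    intro y e
    calc g⁻¹ * y * g * r = g⁻¹ * (y * (g * r * g⁻¹)) * g := by group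
      _ = g⁻¹ * (g * r * g⁻¹ * y) * g := by rw [e]
      _ = _ := by group
  refine
    { sq := by
        calc g * r * g⁻¹ * (g * r * g⁻¹) = g * (r * r) * g⁻¹ := by group
          _ = 1 := by rw [h.sq]; group
      ne := fun e => h.ne (by
        have := congrArg (fun t => g⁻¹ * t * g) e
        simpa [mul_assoc] using this)
      rQ := ⟨r, h.rQ, rfl⟩
      Qr := ?_
      norm := ?_
      two := ?_
      comm := ?_
      fixed := ?_
      card := ?_
      partner := ?_ }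
  · rintro _ ⟨x, hx, rfl⟩
    show g * x * g⁻¹ * (g * r * g⁻¹) = g * r * g⁻¹ * (g * x * g⁻¹)
    calc g * x * g⁻¹ * (g * r * g⁻¹) = g * (x * r) * g⁻¹ := by group
      _ = g * (r * x) * g⁻¹ := by rw [h.Qr x hx]
      _ = _ := by group
  · intro y e x hx
    rw [hm] at hx ⊢
    have h1 := h.norm _ (hy y e) _ hx
    have e1 : g⁻¹ * (y * x * y⁻¹) * g = g⁻¹ * y * g * (g⁻¹ * x * g) * (g⁻¹ * y * g)⁻¹ := by group
    rwa [e1]
  · exact h.two.map _
  · rintro _ ⟨x, hx, rfl⟩ _ ⟨y, hy', rfl⟩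
    show g * x * g⁻¹ * (g * y * g⁻¹) = g * y * g⁻¹ * (g * x * g⁻¹) ∨
      g * x * g⁻¹ * (g * y * g⁻¹) = g * y * g⁻¹ * (g * x * g⁻¹) * (g * r * g⁻¹)
    have e1 : g * x * g⁻¹ * (g * y * g⁻¹) = g * (x * y) * g⁻¹ := by group
    rcases h.comm x hx y hy' with e | e
    · left
      rw [e1, e]; group
    · right
      rw [e1, e]; group
  · intro x hx hf
    rw [hm] at hx
    have h1 := h.fixed _ hx (fun y e => by
      have e2 : (g * y * g⁻¹) * (g * r * g⁻¹) = (g * r * g⁻¹) * (g * y * g⁻¹) := by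
        calc (g * y * g⁻¹) * (g * r * g⁻¹) = g * (y * r) * g⁻¹ := by group
          _ = g * (r * y) * g⁻¹ := by rw [e]
          _ = _ := by group
      rcases hf _ e2 with e3 | e3
      · left
        calc y * (g⁻¹ * x * g) * y⁻¹ = g⁻¹ * (g * y * g⁻¹ * x * (g * y * g⁻¹)⁻¹) * g := by group
          _ = _ := by rw [e3]
      · right
        calc y * (g⁻¹ * x * g) * y⁻¹ = g⁻¹ * (g * y * g⁻¹ * x * (g * y * g⁻¹)⁻¹) * g := by group
          _ = g⁻¹ * (x * (g * r * g⁻¹)) * g := by rw [e3]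
          _ = _ := by group)
    rcases h1 with e | e
    · left
      apply cj
      rw [e]; group
    · right
      apply cj
      rw [e]; group
  · have h1 : centralizer ({g * r * g⁻¹} : Set G) = (centralizer ({r} : Set G)).map (MulAut.conj g).toMonoidHom := by
      ext y
      rw [mem_centralizer_singleton_iff]
      constructor
      · intro e
        exact ⟨g⁻¹ * y * g, mem_centralizer_singleton_iff.2 (hy y e), by
          show g * (g⁻¹ * y * g) * g⁻¹ = y; group⟩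
      · rintro ⟨z, hz, rfl⟩
        have hz' := mem_centralizer_singleton_iff.1 hz
        show g * z * g⁻¹ * (g * r * g⁻¹) = g * r * g⁻¹ * (g * z * g⁻¹)
        calc g * z * g⁻¹ * (g * r * g⁻¹) = g * (z * r) * g⁻¹ := by group
          _ = g * (r * z) * g⁻¹ := by rw [hz']
          _ = _ := by group
    rw [h1, ← Nat.card_congr ((centralizer ({r} : Set G)).equivMapOfInjective _ (MulAut.conj g).injective).toEquiv,
      ← Nat.card_congr (Q.equivMapOfInjective _ (MulAut.conj g).injective).toEquiv, h.card]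
  · intro x hx hx1 hxr
    rw [hm] at hx
    obtain ⟨w, hw, e⟩ := h.partner _ hx (fun e => hx1 (cj (by rw [e]; group))) (fun e => hxr (cj (by rw [e]; group)))
    refine ⟨g * w * g⁻¹, ⟨w, hw, rfl⟩, ?_⟩
    rw [← e]; group

section Cov

variable [Finite G] {C : Subgroup G}

/-- the hypothesis on `C = C_N(r) = 2.U₆(2)` -/
structure Big (r : G) (C : Subgroup G) : Prop where
  le : ∀ c ∈ C, c * r = r * c
  mem : r ∈ C
  card : Nat.card C = 18393661440
  quot : ∀ J : Subgroup G, J ≤ C → (∀ c ∈ C, ∀ j ∈ J, c * j * c⁻¹ ∈ J) → (∀ j ∈ J, j = 1 ∨ j = r) ∨ J = C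

/-- `C ∩ Q = {1, r}` -/
theorem QSide.inf (h : QSide r Q) (hC : Big r C) : ∀ x ∈ C, x ∈ Q → x = 1 ∨ x = r := by
  rcases hC.quot (C ⊓ Q) inf_le_left (fun c hc j hj =>
    ⟨C.mul_mem (C.mul_mem hc hj.1) (C.inv_mem hc), h.norm c (hC.le c hc) j hj.2⟩) with h1 | h1
  · exact fun x hx hxQ => h1 x ⟨hx, hxQ⟩
  · exfalso
    have h2 : C ≤ Q := by rw [← h1]; exact inf_le_right
    have h3 : IsPGroup 2 C := h.two.to_le h2
    obtain ⟨n, hn⟩ := h3.exists_card_eq
    rw [hC.card] at hn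
    have h4 : 3 ∣ 2 ^ n := by rw [← hn]; norm_num
    have := Nat.prime_three.dvd_of_dvd_pow h4
    omega

theorem card_mul_card {A B : Subgroup G} :
    Nat.card A * Nat.card B ≤ Nat.card (A ⊔ B : Subgroup G) * Nat.card (A ⊓ B : Subgroup G) := by
  have h1 : B.relIndex A ≤ B.relIndex (A ⊔ B) :=
    Subgroup.relIndex_le_of_le_right le_sup_left Subgroup.index_ne_zero_of_finite
  have h3 : Nat.card B * B.relIndex (A ⊔ B) = Nat.card (A ⊔ B : Subgroup G) := by
    unfold Subgroup.relIndex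
    rw [← Nat.card_congr (Subgroup.subgroupOfEquivOfLe (le_sup_right : B ≤ A ⊔ B)).toEquiv, Subgroup.card_mul_index]
  have h4 : Nat.card (A ⊓ B : Subgroup G) * B.relIndex A = Nat.card A := by
    rw [← Subgroup.inf_relIndex_left]
    unfold Subgroup.relIndex
    rw [← Nat.card_congr (Subgroup.subgroupOfEquivOfLe (inf_le_left : A ⊓ B ≤ A)).toEquiv, Subgroup.card_mul_index]
  rw [← h3, ← h4]
  calc Nat.card (A ⊓ B : Subgroup G) * B.relIndex A * Nat.card B
      ≤ Nat.card (A ⊓ B : Subgroup G) * B.relIndex (A ⊔ B) * Nat.card B :=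
        Nat.mul_le_mul_right _ (Nat.mul_le_mul_left _ h1)
    _ = _ := by ring

/-- `C Q = C_G(r)` -/
theorem QSide.sup (h : QSide r Q) (hC : Big r C) : ∀ y, y * r = r * y → ∃ c ∈ C, ∃ x ∈ Q, y = c * x := by
  have hn : ∀ a ∈ C, ∀ b ∈ Q, a * b * a⁻¹ ∈ Q := fun a ha b hb => h.norm a (hC.le a ha) b hb
  have h1 := card_mul_card (A := C) (B := Q)
  have h2 : Nat.card (C ⊓ Q : Subgroup G) = 2 := by
    have e : (C ⊓ Q : Subgroup G) = zpowers r := by
      apply le_antisymm
      · intro x hx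
        rcases h.inf hC x hx.1 hx.2 with rfl | rfl
        · exact one_mem _
        · exact mem_zpowers _
      · rw [zpowers_le]
        exact ⟨hC.mem, h.rQ⟩
    rw [e, Nat.card_zpowers]
    exact orderOf_eq_prime (by rw [pow_two]; exact h.sq) h.ne
  rw [h2, hC.card] at h1
  have h3 : C ⊔ Q = centralizer ({r} : Set G) := by
    refine Subgroup.eq_of_le_of_card_ge (sup_le (fun c hc => mem_centralizer_singleton_iff.2 (hC.le c hc))
      fun x hx => mem_centralizer_singleton_iff.2 (h.Qr x hx)) ?_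
    rw [h.card]
    have := Nat.card_pos (α := Q)
    omega
  intro y hy
  have hy' : y ∈ ((C ⊔ Q : Subgroup G) : Set G) := by
    rw [h3]
    exact mem_centralizer_singleton_iff.2 hy
  have hle : C ≤ normalizer (Q : Set G) := by
    intro a ha
    rw [mem_normalizer_iff]
    intro b
    refine ⟨fun hb => hn a ha b hb, fun hb => ?_⟩
    have h1 := hn a⁻¹ (C.inv_mem ha) _ hb
    have e : a⁻¹ * (a * b * a⁻¹) * a⁻¹⁻¹ = b := by group
    rwa [e] at h1
  rw [Subgroup.coe_mul_of_left_le_normalizer_right C Q hle] at hy'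
  obtain ⟨c, hc, x, hx, e⟩ := hy'
  exact ⟨c, hc, x, hx, e.symm⟩

/-- no fixed points of `C` on `Q/⟨r⟩` -/
theorem QSide.fixed' (h : QSide r Q) (hC : Big r C) {v : G} (hv : v ∈ Q)
    (hf : ∀ c ∈ C, c * v * c⁻¹ = v ∨ c * v * c⁻¹ = v * r) : v = 1 ∨ v = r := by
  refine h.fixed v hv fun y hy => ?_
  obtain ⟨c, hc, x, hx, rfl⟩ := h.sup hC y hy
  have h1 : x * v * x⁻¹ = v ∨ x * v * x⁻¹ = v * r := by
    rcases h.comm x hx v hv with e | e
    · left; rw [e, mul_inv_cancel_right]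
    · right
      have h2 := h.Qr x⁻¹ (Q.inv_mem hx)
      calc x * v * x⁻¹ = v * x * r * x⁻¹ := by rw [e]
        _ = v * x * (r * x⁻¹) := by group
        _ = v * x * (x⁻¹ * r) := by rw [h2]
        _ = v * r := by group
  have hcr : c * r * c⁻¹ = r := by rw [hC.le c hc, mul_inv_cancel_right]
  have e0 : c * x * v * (c * x)⁻¹ = c * (x * v * x⁻¹) * c⁻¹ := by group
  have e1 : c * (v * r) * c⁻¹ = c * v * c⁻¹ * (c * r * c⁻¹) := by group
  rcases h1 with h1 | h1 <;> rcases hf c hc with h2 | h2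
  · left; rw [e0, h1, h2]
  · right; rw [e0, h1, h2]
  · right; rw [e0, h1, e1, h2, hcr]
  · left; rw [e0, h1, e1, h2, hcr, mul_assoc, h.sq, mul_one]

/-- an element `y` of `C_G(r)` of odd prime order `p` fixing `u` modulo `⟨r⟩`: there is one in `C` commuting with `u` -/
theorem QSide.lift (h : QSide r Q) (hC : Big r C) {u : G} (hu : u ∈ Q) {p : ℕ} (hp : p.Prime) (hp2 : p ≠ 2)
    {y : G} (ho : orderOf y = p) (hy : y * r = r * y) (hyu : y * u * y⁻¹ = u ∨ y * u * y⁻¹ = u * r) :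
    ∃ c ∈ C, orderOf c = p ∧ c * u = u * c := by
  have hmemQ : ∀ n : ℕ, p.Coprime (2 ^ n) := fun n => Nat.Coprime.pow_right n ((Nat.coprime_primes hp Nat.prime_two).2 hp2)
  obtain ⟨c, hc, x, hx, e⟩ := h.sup hC y hy
  have hcr := hC.le c hc
  -- powers of `c` modulo `Q`
  have hpow : ∀ n : ℕ, ∃ z ∈ Q, c ^ n = y ^ n * z := by
    intro n
    induction n with
    | zero => exact ⟨1, one_mem _, by simp⟩
    | succ n ih =>
      obtain ⟨z, hz, e1⟩ := ih
      have e2 : c = y * x⁻¹ := by rw [e]; group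
      have hyn : y⁻¹ * r = r * y⁻¹ := by
        rw [inv_mul_eq_iff_eq_mul, ← mul_assoc, hy, mul_assoc, mul_inv_cancel, mul_one]
      have h3 := h.norm y⁻¹ hyn z hz
      rw [inv_inv] at h3
      refine ⟨y⁻¹ * z * y * x⁻¹, Q.mul_mem h3 (Q.inv_mem hx), ?_⟩
      rw [pow_succ, e1]
      nth_rewrite 1 [e2]
      rw [pow_succ]
      group
  have hcp : c ^ p ∈ Q := by
    obtain ⟨z, hz, e1⟩ := hpow p
    rw [e1, ← ho, pow_orderOf_eq_one, one_mul]
    exact hz
  -- a power of `c` of order `p`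
  obtain ⟨k, hk⟩ := h.two ⟨c ^ p, hcp⟩
  have hk' : (c ^ p) ^ 2 ^ k = 1 := congrArg Subtype.val hk
  set d := c ^ 2 ^ k with hd
  have hdp : d ^ p = 1 := by
    rw [hd, ← pow_mul, mul_comm, pow_mul]
    exact hk'
  have hdC : d ∈ C := C.pow_mem hc _
  have hd1 : d ≠ 1 := by
    intro h1
    obtain ⟨z, hz, e1⟩ := hpow (2 ^ k)
    have h2 : y ^ 2 ^ k ∈ Q := by
      have e2 : y ^ 2 ^ k = z⁻¹ := by
        rw [eq_inv_iff_mul_eq_one, ← e1]
        exact h1
      rw [e2]; exact Q.inv_mem hz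
    obtain ⟨m, hm⟩ := h.two ⟨y ^ 2 ^ k, h2⟩
    have hm' : (y ^ 2 ^ k) ^ 2 ^ m = 1 := congrArg Subtype.val hm
    rw [← pow_mul, ← pow_add] at hm'
    have h3 := orderOf_dvd_of_pow_eq_one hm'
    rw [ho] at h3
    have := hmemQ (k + m)
    have h4 : p ∣ 1 := by
      rw [← this]
      exact Nat.dvd_gcd dvd_rfl h3
    exact hp.one_lt.ne' (Nat.dvd_one.1 h4)
  have hdo : orderOf d = p := orderOf_eq_prime hdp hd1 (hp := ⟨hp⟩)
  refine ⟨d, hdC, hdo, ?_⟩
  -- `d` fixes `u` modulo `⟨r⟩`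
  have hfc : c * u * c⁻¹ = u ∨ c * u * c⁻¹ = u * r := by
    have e2 : c = y * x⁻¹ := by rw [e]; group
    have hx' : x⁻¹ * u * x = u ∨ x⁻¹ * u * x = u * r := by
      rcases h.comm x⁻¹ (Q.inv_mem hx) u hu with e3 | e3
      · left; rw [e3, inv_mul_cancel_right]
      · right
        have h2 := h.Qr x hx
        calc x⁻¹ * u * x = u * x⁻¹ * r * x := by rw [e3]
          _ = u * x⁻¹ * (r * x) := by group
          _ = u * x⁻¹ * (x * r) := by rw [h2]
          _ = u * r := by group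
    have hyr : y * r * y⁻¹ = r := by rw [hy, mul_inv_cancel_right]
    have e0 : c * u * c⁻¹ = y * (x⁻¹ * u * x) * y⁻¹ := by rw [e2]; group
    have e1 : y * (u * r) * y⁻¹ = y * u * y⁻¹ * (y * r * y⁻¹) := by group
    rcases hx' with h1 | h1 <;> rcases hyu with h2 | h2
    · left; rw [e0, h1, h2]
    · right; rw [e0, h1, h2]
    · right; rw [e0, h1, e1, h2, hyr]
    · left; rw [e0, h1, e1, h2, hyr, mul_assoc, h.sq, mul_one]
  have hfn : ∀ n : ℕ, c ^ n * u * (c ^ n)⁻¹ = u ∨ c ^ n * u * (c ^ n)⁻¹ = u * r := by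
    intro n
    induction n with
    | zero => left; simp
    | succ n ih =>
      have hcn : c ^ n * r * (c ^ n)⁻¹ = r := by
        have h1 : Commute (c ^ n) r := (show Commute c r from hcr).pow_left n
        rw [h1.eq, mul_inv_cancel_right]
      have e0 : c ^ (n + 1) * u * (c ^ (n + 1))⁻¹ = c ^ n * (c * u * c⁻¹) * (c ^ n)⁻¹ := by
        rw [pow_succ]; group
      have e1 : c ^ n * (u * r) * (c ^ n)⁻¹ = c ^ n * u * (c ^ n)⁻¹ * (c ^ n * r * (c ^ n)⁻¹) := by group
      rcases hfc with h1 | h1 <;> rcases ih with h2 | h2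
      · left; rw [e0, h1, h2]
      · right; rw [e0, h1, h2]
      · right; rw [e0, h1, e1, h2, hcn]
      · left; rw [e0, h1, e1, h2, hcn, mul_assoc, h.sq, mul_one]
  rcases hfn (2 ^ k) with h1 | h1
  · exact mul_inv_eq_iff_eq_mul.1 h1
  · exfalso
    rw [← hd] at h1
    have hdr : d * r * d⁻¹ = r := by
      have h2 : Commute d r := (show Commute c r from hcr).pow_left _
      rw [h2.eq, mul_inv_cancel_right]
    -- `d ^ n u d ^ -n = u r ^ n`
    have h2 : ∀ n : ℕ, d ^ n * u * (d ^ n)⁻¹ = u * r ^ n := by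
      intro n
      induction n with
      | zero => simp
      | succ n ih =>
        have hdn : d * r ^ n * d⁻¹ = r ^ n := by
          have h2 : Commute d r := (show Commute c r from hcr).pow_left _
          rw [(h2.pow_right n).eq, mul_inv_cancel_right]
        calc d ^ (n + 1) * u * (d ^ (n + 1))⁻¹ = d * (d ^ n * u * (d ^ n)⁻¹) * d⁻¹ := by
              rw [pow_succ']; group
          _ = d * (u * r ^ n) * d⁻¹ := by rw [ih]
          _ = (d * u * d⁻¹) * (d * r ^ n * d⁻¹) := by group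
          _ = u * r * r ^ n := by rw [h1, hdn]
          _ = u * r ^ (n + 1) := by rw [pow_succ', mul_assoc]
    have h3 := h2 p
    rw [hdp, one_mul, inv_one, mul_one] at h3
    have h4 : r ^ p = 1 := (mul_eq_left.1 h3.symm)
    have h5 := orderOf_dvd_of_pow_eq_one h4
    rw [orderOf_eq_prime (by rw [pow_two]; exact h.sq) h.ne] at h5
    exact hp2 ((Nat.prime_dvd_prime_iff_eq Nat.prime_two hp).1 h5).symm

end Cov

end Cfsg.Agent.H622.Fi
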