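import Cfsg.Agent.TwoESix.SheetMM
import Cfsg.Agent.H622.Fi.GDef
import Cfsg.Agent.H203.EPX.Defs

/-!
# S5745, `²E₆(2)` and `Fi22`, G-side: `QSide (r0 F) (RE K)` (helper622)

* `card_RE` : `|RE K| = 2²¹`;
* `qside` : `QSide (r0 F) (RE K)`;
* `opp` : elements of `RE K` commuting with a root involution opposite to `r0` are trivial;
* `conj_a0` : root involutions commuting with `r0`, outside `RE K`, are conjugate to `a0 = x_60(1)` under `C(r0)`.
-/

set_option autoImplicit false
set_option linter.unusedSectionVars false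
set_option linter.unusedVariables false

namespace Cfsg.Agent.H622.Fi

open Cfsg Cfsg.Lie
open Cfsg.Agent.ChevalleyStructure
open Cfsg.Agent.ChevalleyStructure.Elts hiding x_add x_zero x_eq_one_iff
open Cfsg.Agent.ChevalleyStructure.TwE6Basic
open Cfsg.Agent.ChevalleyStructure.TwE6BN
open Cfsg.Agent.TwoESix
open Cfsg.Agent.TwoESix.LeviA
open Cfsg.Agent.TwoESix.LeviB
open Cfsg.Agent.TwoESix.LeviC
open Cfsg.Agent.TwoESix.LeviD
open Cfsg.Agent.TwoESix.LongPairs
open Cfsg.Agent.TwoESix.LongCard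
open Cfsg.Agent.TwoESix.FlagH
open Cfsg.Agent.TwoESix.FlagI
open Cfsg.Agent.TwoESix.KeyExtra
open Cfsg.Agent.TwoESix.SheetA
open Cfsg.Agent.BabyU (rootClass)

open scoped commutatorElement Pointwise

universe u

variable {K : Type u} [Field K] [Fintype K] {φ : K →+* K} (F : Four K φ)
include F

theorem card_LL : Nat.card ↥(LL K) = 9196830720 := card_levi F

/-- `|RE K| = 2²¹` -/
theorem card_RE : Nat.card ↥(RE K) = 2 ^ 21 := by
  have := finite_E (K := K)
  apply le_antisymm
  · exact SheetMM.card_RE_le F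
  · have h1 : Nat.card (Subgroup.centralizer ({r0 F} : Set ↥(twistedE6 K 2))) ≤ Nat.card (↥(RE K) × ↥(LL K)) := by
      have : Finite (↥(RE K) × ↥(LL K)) := by
        have : Finite (GL chevE6.Idx K) := inferInstance
        infer_instance
      refine Nat.card_le_card_of_surjective (fun p : ↥(RE K) × ↥(LL K) =>
        (⟨(p.1 : ↥(twistedE6 K 2)) * io K p.2, Subgroup.mem_centralizer_singleton_iff.2 (by
          have e1 : (p.1 : ↥(twistedE6 K 2)) * r0 F = r0 F * p.1 := RE_comm_r0 F p.1.2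
          have e2 : io K p.2 * r0 F = r0 F * io K p.2 := LL_r0 F (l := io K p.2) p.2.2
          rw [mul_assoc, e2, ← mul_assoc, e1, mul_assoc])⟩ :
          Subgroup.centralizer ({r0 F} : Set ↥(twistedE6 K 2)))) ?_
      rintro ⟨y, hy⟩
      obtain ⟨q, hq, l, hl, hlE, e⟩ := decompE F (Subgroup.mem_centralizer_singleton_iff.1 hy)
      exact ⟨(⟨q, hq⟩, ⟨l, hl⟩), Subtype.ext e.symm⟩
    rw [Nat.card_prod, card_cent F, card_LL F] at h1
    omega

/-- **`QSide`.** -/
theorem qside : QSide (r0 F) (RE K) := by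
  have hz := r0_sq' F
  refine
    { sq := hz
      ne := r0_ne' F
      rQ := r0_mem_RE F
      Qr := fun x' hx => RE_comm_r0 F hx
      norm := fun y hy x' hx => R_norm F y hy x' hx
      two := ?_
      comm := fun x' hx y hy => comm_RE' F hx hy
      fixed := ?_
      card := ?_
      partner := ?_ }
  · rintro ⟨x', hx⟩
    refine ⟨2, Subtype.ext ?_⟩
    show x' ^ 2 ^ 2 = 1
    have e : x' ^ 2 ^ 2 = x' * x' * (x' * x') := by
      rw [show 2 ^ 2 = 4 from rfl, pow_succ, pow_succ, pow_two]; group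
    rw [e]
    rcases sq_RE F x' hx with h | h <;> rw [h]
    · rw [one_mul]
    · exact hz
  · intro x' hx hf
    -- the fixed points modulo `⟨r0⟩` form a normal subgroup
    by_contra hcon
    push Not at hcon
    have hxz : x' * r0 F = r0 F * x' := RE_comm_r0 F hx
    let N : Subgroup ↥(twistedE6 K 2) :=
      { carrier := {v | v ∈ RE K ∧ ∀ y, y * r0 F = r0 F * y → y * v * y⁻¹ = v ∨ y * v * y⁻¹ = v * r0 F}
        one_mem' := ⟨one_mem _, fun y _ => Or.inl (by group)⟩
        mul_mem' := by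
          rintro a b ⟨ha, ha'⟩ ⟨hb, hb'⟩
          refine ⟨mul_mem ha hb, fun y hy => ?_⟩
          have e : y * (a * b) * y⁻¹ = (y * a * y⁻¹) * (y * b * y⁻¹) := by group
          have hbz := RE_comm_r0 F hb
          rcases ha' y hy with h1 | h1 <;> rcases hb' y hy with h2 | h2
          · left; rw [e, h1, h2]
          · right; rw [e, h1, h2, mul_assoc]
          · right
            rw [e, h1, h2, mul_assoc, ← hbz, mul_assoc]
          · left
            rw [e, h1, h2]
            calc a * r0 F * (b * r0 F) = a * (r0 F * b) * r0 F := by group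
              _ = a * (b * r0 F) * r0 F := by rw [← hbz]
              _ = a * b * (r0 F * r0 F) := by group
              _ = a * b := by rw [hz, mul_one]
        inv_mem' := by
          rintro a ⟨ha, ha'⟩
          refine ⟨inv_mem ha, fun y hy => ?_⟩
          have haz := RE_comm_r0 F (inv_mem ha)
          have e : y * a⁻¹ * y⁻¹ = (y * a * y⁻¹)⁻¹ := by group
          rcases ha' y hy with h1 | h1
          · left; rw [e, h1]
          · right
            rw [e, h1, mul_inv_rev, inv_eq_of_mul_eq_one_left hz, ← haz] }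
    rcases irr F N (fun v hv => hv.1) (fun y hy v hv => by
      have hyi : y⁻¹ * r0 F = r0 F * y⁻¹ := by
        rw [inv_mul_eq_iff_eq_mul, ← mul_assoc, hy, mul_assoc, mul_inv_cancel, mul_one]
      rcases hv.2 y hy with h1 | h1
      · rw [h1]; exact hv
      · rw [h1]
        refine mul_mem hv ⟨r0_mem_RE F, fun w hw => Or.inl ?_⟩
        rw [hw, mul_inv_cancel_right]) with h | h
    · rcases h x' ⟨hx, hf⟩ with h1 | h1
      · exact hcon.1 h1
      · exact hcon.2 h1
    · obtain ⟨y, hy, h1, h2⟩ := exists_move' F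
      have h3 : c0 F ∈ N := by rw [h]; exact c_R F
      rcases h3.2 y hy with h4 | h4
      · exact h1 h4
      · exact h2 h4
  · rw [card_cent F, card_RE F]
    norm_num
  · intro x' hx h1 h2
    by_contra hcon
    push Not at hcon
    rcases (large F).cent x' hx (fun y hy => by
      rcases comm_RE F hx hy with h | h
      · exact h
      · exact absurd (by rw [← h, commutatorElement_def]) (hcon y hy)) with h | h
    · exact h1 h
    · exact h2 h

/-- representatives of the pairs of root involutions under `C(r0)` -/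
theorem exists_type {s : ↥(twistedE6 K 2)} (hs : s ∈ rootClass K) :
    ∃ k : ↥(twistedE6 K 2), k * r0 F = r0 F * k ∧ ∃ γ ∈ [71, 70, 60, 25, 0],
      ((k * s * k⁻¹ : ↥(twistedE6 K 2)) : GL chevE6.Idx K) = x γ 1 := by
  obtain ⟨h, rfl⟩ := exists_conj F hs
  obtain ⟨k, hk, h1, γ, hγ, h2⟩ := pair_general F (one_mem (twistedE6 K 2)) h.2
  refine ⟨⟨k, hk⟩, ?_, γ, hγ, h2⟩
  apply Subtype.ext
  show k * x 71 1 = x 71 1 * k
  rw [inv_one, one_mul, mul_one] at h1
  exact mul_inv_eq_iff_eq_mul.1 h1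

/-- **Opposite root involutions.** -/
theorem opp {s : ↥(twistedE6 K 2)} (hs : s ∈ rootClass K) (hsr : s ≠ r0 F) (h3 : (r0 F * s) ^ 3 = 1)
    {v : ↥(twistedE6 K 2)} (hv : v ∈ RE K) (hvs : v * s = s * v) : v = 1 := by
  have := F.charP
  obtain ⟨k, hk, γ, hγ, e⟩ := exists_type F hs
  -- reduction to `s = x_γ(1)`
  set S := k * s * k⁻¹ with hS
  have hkr : k * r0 F * k⁻¹ = r0 F := by rw [hk, mul_inv_cancel_right]
  have hS3 : (r0 F * S) ^ 3 = 1 := by
    have e1 : r0 F * S = k * (r0 F * s) * k⁻¹ := by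
      rw [hS]
      calc r0 F * (k * s * k⁻¹) = (k * r0 F * k⁻¹) * (k * s * k⁻¹) := by rw [hkr]
        _ = _ := by group
    rw [e1, conj_pow, h3, mul_one, mul_inv_cancel]
  have hSr : S ≠ r0 F := by
    intro h
    apply hsr
    have h1 : s = k⁻¹ * S * k := by rw [hS]; group
    have h2 : k⁻¹ * r0 F * k = r0 F := by
      rw [mul_assoc, ← hk, inv_mul_cancel_left]
    rw [h1, h, h2]
  have hss : S * S = 1 := by
    rw [hS]
    calc k * s * k⁻¹ * (k * s * k⁻¹) = k * (s * s) * k⁻¹ := by group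
      _ = 1 := by rw [root_sq F hs]; group
  have hnc : ¬ r0 F * S = S * r0 F := by
    intro h
    apply hSr
    have h4 : (r0 F * S) ^ 2 = 1 := by
      rw [pow_two]
      calc r0 F * S * (r0 F * S) = r0 F * (S * r0 F) * S := by group
        _ = r0 F * (r0 F * S) * S := by rw [h]
        _ = (r0 F * r0 F) * (S * S) := by group
        _ = 1 := by rw [r0_sq' F, hss, one_mul]
    rw [pow_succ, h4, one_mul] at hS3
    rw [← inv_eq_of_mul_eq_one_left (r0_sq' F)]
    exact (inv_eq_of_mul_eq_one_right hS3).symm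
  have hV : k * v * k⁻¹ ∈ RE K := R_norm F k hk v hv
  have hVS : (k * v * k⁻¹) * S = S * (k * v * k⁻¹) := by
    rw [hS]
    calc k * v * k⁻¹ * (k * s * k⁻¹) = k * (v * s) * k⁻¹ := by group
      _ = k * (s * v) * k⁻¹ := by rw [hvs]
      _ = _ := by group
  have hnc' : ¬ x 71 (1 : K) * x γ 1 = x γ 1 * x 71 1 := fun h => hnc (Subtype.ext (by
    show x 71 (1 : K) * (S : GL chevE6.Idx K) = (S : GL chevE6.Idx K) * x 71 1
    rw [e]; exact h))
  simp only [List.mem_cons, List.not_mem_nil, or_false] at hγ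
  have hfin : k * v * k⁻¹ = 1 := by
    rcases hγ with rfl | rfl | rfl | rfl | rfl
    · exact absurd rfl hnc'
    · exact absurd comm70 hnc'
    · exact absurd comm60 hnc'
    · exfalso
      have h4 : (x 71 (1 : K) * x 25 1) ^ 3 = 1 := by
        have := congrArg Subtype.val hS3
        rw [← e]
        exact this
      rw [pow_succ, sq25] at h4
      have h5 := sq25 (K := K)
      have h6 : x 71 (1 : K) * x 25 1 = x 70 1 := by
        have h7 : x 70 (1 : K) * x 70 1 = 1 := x_sq 70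
        rw [← inv_eq_of_mul_eq_one_right h4, inv_eq_of_mul_eq_one_right h7]
      rw [h6, pow_two, x_sq] at h5
      exact x_ne_one (K := K) (r := 70) (by norm_num) h5.symm
    · have h4 : ((k * v * k⁻¹ : ↥(twistedE6 K 2)) : GL chevE6.Idx K) * x 0 (1 : K) =
          x 0 1 * ((k * v * k⁻¹ : ↥(twistedE6 K 2)) : GL chevE6.Idx K) := by
        rw [← e]
        exact congrArg Subtype.val hVS
      exact Subtype.ext (UR_cent_bot (Subgroup.mem_subgroupOf.1 hV) h4)
  have h8 : v = k⁻¹ * (k * v * k⁻¹) * k := by group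
  rw [h8, hfin]; group

/-- **Root involutions commuting with `r0`, outside `RE K`.** -/
theorem conj_a0 {s : ↥(twistedE6 K 2)} (hs : s ∈ rootClass K) (hsr : s * r0 F = r0 F * s) (hQ : s ∉ RE K) :
    ∃ k : ↥(twistedE6 K 2), k * r0 F = r0 F * k ∧ k * s * k⁻¹ = a0 F := by
  have := F.charP
  obtain ⟨k, hk, γ, hγ, e⟩ := exists_type F hs
  refine ⟨k, hk, ?_⟩
  set S := k * s * k⁻¹ with hS
  have hki : k⁻¹ * r0 F = r0 F * k⁻¹ := by
    rw [inv_mul_eq_iff_eq_mul, ← mul_assoc, hk, mul_assoc, mul_inv_cancel, mul_one]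
  have hSQ : S ∉ RE K := by
    intro h
    apply hQ
    have h1 := R_norm F k⁻¹ hki S h
    have e1 : k⁻¹ * S * k⁻¹⁻¹ = s := by rw [hS]; group
    rwa [e1] at h1
  have hSr : S * r0 F = r0 F * S := by
    rw [hS]
    have e1 : k * s * k⁻¹ * r0 F = k * (s * (k⁻¹ * r0 F)) := by group
    rw [e1, hki, ← mul_assoc s, hsr]
    calc k * (r0 F * s * k⁻¹) = (k * r0 F) * s * k⁻¹ := by group
      _ = _ := by rw [hk]; group
  have hc : x γ (1 : K) * x 71 1 = x 71 1 * x γ 1 := by
    have h1 := congrArg Subtype.val hSr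
    rw [← e]
    exact h1
  simp only [List.mem_cons, List.not_mem_nil, or_false] at hγ
  rcases hγ with rfl | rfl | rfl | rfl | rfl
  · exact absurd (show S ∈ RE K from by
      have h1 : S = r0 F := Subtype.ext e
      rw [h1]; exact r0_mem_RE F) hSQ
  · exact absurd (show S ∈ RE K from by
      have h1 : S = c0 F := Subtype.ext e
      rw [h1]; exact c_R F) hSQ
  · exact Subtype.ext e
  · exfalso
    have h3 : (x 71 (1 : K) * x 25 1) ^ 2 = 1 := by
      rw [pow_two]
      calc x 71 (1 : K) * x 25 1 * (x 71 1 * x 25 1) = x 71 1 * (x 25 1 * x 71 1) * x 25 1 := by group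
        _ = (x 71 1 * x 71 1) * (x 25 1 * x 25 1) := by rw [hc]; group
        _ = 1 := by rw [x_sq, x_sq, one_mul]
    rw [sq25] at h3
    exact x_ne_one (K := K) (r := 70) (by norm_num) h3
  · exfalso
    have h3 : (x 71 (1 : K) * x 0 1) ^ 2 = 1 := by
      rw [pow_two]
      calc x 71 (1 : K) * x 0 1 * (x 71 1 * x 0 1) = x 71 1 * (x 0 1 * x 71 1) * x 0 1 := by group
        _ = (x 71 1 * x 71 1) * (x 0 1 * x 0 1) := by rw [hc]; group
        _ = 1 := by rw [x_sq, x_sq, one_mul]
    have h4 := cube0 (K := K)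
    rw [pow_succ, h3, one_mul] at h4
    have h5 : x 71 (1 : K) = x 0 1 := by
      rw [eq_inv_of_mul_eq_one_left h4, inv_eq_of_mul_eq_one_left (x_sq 0)]
    exact x_ne (K := K) (r := 71) (s := 0) (by norm_num) (by norm_num) (by norm_num) h5

theorem mem_zp {v : ↥(twistedE6 K 2)} : v ∈ Subgroup.zpowers (r0 F) ↔ v = 1 ∨ v = r0 F := by
  constructor
  · intro h
    obtain ⟨n, rfl⟩ := Subgroup.mem_zpowers_iff.1 h
    have h2 : r0 F ^ (2 : ℤ) = 1 := by
      have := r0_sq' F
      rw [zpow_two]; exact this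
    rcases Int.even_or_odd' n with ⟨m, rfl | rfl⟩
    · left
      rw [zpow_mul, h2, one_zpow]
    · right
      rw [zpow_add, zpow_mul, h2, one_zpow, one_mul, zpow_one]
  · rintro (rfl | rfl)
    · exact one_mem _
    · exact Subgroup.mem_zpowers _

theorem comm_mem_zp {x' v : ↥(twistedE6 K 2)} :
    ⁅x', v⁆ ∈ Subgroup.zpowers (r0 F) ↔ (x' * v * x'⁻¹ = v ∨ x' * v * x'⁻¹ = r0 F * v) := by
  rw [mem_zp F, commutatorElement_def, mul_inv_eq_one]
  exact or_congr Iff.rfl mul_inv_eq_iff_eq_mul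

/-- conjugates of `r0` are root involutions -/
theorem mem_root (g : ↥(twistedE6 K 2)) : g * r0 F * g⁻¹ ∈ rootClass K :=
  conj_T (show r0 F ∈ rootClass K from xe_T F 71 (by decide +kernel)) g

/-- **The facts on `²E₆(2)`** from (4a), (4b) and Borel–Tits. -/
theorem gside_of {u : ↥(twistedE6 K 2)} (hu : u ∈ RE K) (hu1 : u ∉ Subgroup.zpowers (r0 F))
    (h4 : ∀ a ∈ rootClass K, a * r0 F = r0 F * a → a ∉ RE K → ⁅a, u⁆ ∉ Subgroup.zpowers (r0 F))
    (h7 : ∃ y : ↥(twistedE6 K 2), y * r0 F = r0 F * y ∧ orderOf y = 7 ∧ y * u = u * y)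
    (h5 : ∃ y : ↥(twistedE6 K 2), y * r0 F = r0 F * y ∧ orderOf y = 5 ∧ y * u = u * y)
    (hbt : ∀ d : ↥(twistedE6 K 2), orderOf d = 2 → 11 ∣ Nat.card (Subgroup.centralizer ({d} : Set ↥(twistedE6 K 2))) →
      ∃ g : ↥(twistedE6 K 2), Subgroup.centralizer ({d} : Set ↥(twistedE6 K 2)) ≤
        Subgroup.centralizer {g * r0 F * g⁻¹}) :
    H203.EPX.GSide (r0 F) (RE K) u := by
  have Q := qside F
  have hc : ∀ {y : ↥(twistedE6 K 2)}, y ∈ Subgroup.centralizer ({r0 F} : Set ↥(twistedE6 K 2)) ↔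
      y * r0 F = r0 F * y := Subgroup.mem_centralizer_singleton_iff
  have hcr : ∀ v ∈ RE K, r0 F * v = v * r0 F := fun v hv => (Q.Qr v hv).symm
  refine
    { rr := Q.sq
      r1 := Q.ne
      rQ := Q.rQ
      le := fun v hv => hc.2 (Q.Qr v hv)
      nor := fun x' hx v hv => Q.norm x' (hc.1 hx) v hv
      two := Q.two
      com := fun v hv w hw => (comm_mem_zp F).2 ?_
      surj := fun v hv hv1 => ?_
      card := Q.card
      fix := fun v hv hf => (mem_zp F).2 (Q.fixed v hv fun y hy => ?_)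
      uQ := hu
      u1 := hu1
      tr := fun g hg hgQ => h4 _ (mem_root F g) hg hgQ
      seven := ?_
      five := ?_
      opp := fun g ho v hv hvs => ?_
      bt := hbt }
  · rcases Q.comm v hv w hw with h | h
    · left; rw [h, mul_inv_cancel_right]
    · right
      rw [h, hcr w hw]
      have h2 := Q.Qr v⁻¹ (inv_mem hv)
      calc w * v * r0 F * v⁻¹ = w * v * (r0 F * v⁻¹) := by group
        _ = w * v * (v⁻¹ * r0 F) := by rw [h2]
        _ = w * r0 F := by group
  · obtain ⟨w, hw, e⟩ := Q.partner v hv (fun h => hv1 ((mem_zp F).2 (Or.inl h))) (fun h => hv1 ((mem_zp F).2 (Or.inr h)))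
    exact ⟨w, hw, by rw [commutatorElement_def]; exact e⟩
  · rcases (comm_mem_zp F).1 (hf y (hc.2 hy)) with h | h
    · exact Or.inl h
    · right; rw [h, hcr v hv]
  · obtain ⟨y, h1, h2, h3⟩ := h7
    exact ⟨y, hc.2 h1, h2, h3⟩
  · obtain ⟨y, h1, h2, h3⟩ := h5
    exact ⟨y, hc.2 h1, h2, h3⟩
  · have h3 : (g * r0 F * g⁻¹ * r0 F) ^ 3 = 1 := by rw [← ho]; exact pow_orderOf_eq_one _
    refine opp F (mem_root F g) (fun e => ?_) ?_ hv hvs
    · rw [e, Q.sq, orderOf_one] at ho
      norm_num at ho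
    · have e : r0 F * (g * r0 F * g⁻¹) = r0 F * (g * r0 F * g⁻¹ * r0 F) * (r0 F)⁻¹ := by group
      rw [e, conj_pow, h3, mul_one, mul_inv_cancel]

end Cfsg.Agent.H622.Fi
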